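import Mathlib

/-!
# Two identities in a commutative group of exponent two with operators `a`, `c`

Here `c` has order `3` or `5`, its norm vanishes, and `a` inverts `c`.
-/

set_option autoImplicit false

namespace Cfsg.Agent.Lib.Ord5.Module

section Defs

variable {W : Type*} [Group W]

/-- The relations for `r = 3`. -/
def Data3 (a c : W →* W) : Prop :=
  (∀ w, w * c w * c (c w) = 1) ∧ (∀ w, c (c (c w)) = w) ∧ ∀ w, a (c w) = c (c (a w))

/-- The relations for `r = 5`. -/
def Data5 (a c : W →* W) : Prop :=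
  (∀ w, w * c w * c (c w) * c (c (c w)) * c (c (c (c w))) = 1) ∧ (∀ w, c (c (c (c (c w)))) = w) ∧
    ∀ w, a (c w) = c (c (c (c (a w))))

end Defs

section Comm

variable {W : Type*} [CommGroup W]

theorem r1 (hW : ∀ w : W, w * w = 1) {a c : W →* W} (h : Data3 a c ∨ Data5 a c) (w : W)
    (hw : a w = w) : ∃ v, v * a v = w := by
  have hi : ∀ x : W, x⁻¹ = x := fun x => inv_eq_of_mul_eq_one_left (hW x)
  rcases h with ⟨hN, hc, hac⟩ | ⟨hN, hc, hac⟩
  · refine ⟨c w, ?_⟩
    rw [hac, hw]
    have := hN w
    rw [mul_assoc] at this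
    exact (eq_inv_of_mul_eq_one_right this).trans (hi w)
  · refine ⟨c w * c (c w), ?_⟩
    have h1 : a (c w) = c (c (c (c w))) := by rw [hac, hw]
    have h2 : a (c (c w)) = c (c (c w)) := by
      rw [hac, h1, hc]
    rw [map_mul, h1, h2]
    have := hN w
    have h3 : w * (c w * c (c w) * (c (c (c (c w))) * c (c (c w)))) = 1 := by
      rw [← this]; simp only [mul_left_comm, mul_comm]
    exact (eq_inv_of_mul_eq_one_right h3).trans (hi w)

theorem r2 (hW : ∀ w : W, w * w = 1) {a c : W →* W} (h : Data3 a c ∨ Data5 a c) (w : W) :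
    ∃ v v', (v * a v) * (v' * c (c (a v'))) = w := by
  have hi : ∀ x : W, x⁻¹ = x := fun x => inv_eq_of_mul_eq_one_left (hW x)
  rcases h with ⟨hN, hc, hac⟩ | ⟨hN, hc, hac⟩
  · refine ⟨c (c w), c w, ?_⟩
    have h1 : a (c (c w)) = c (a w) := by rw [hac, hac, hc]
    have h2 : c (c (a (c w))) = c (a w) := by rw [hac, hc]
    rw [h1, h2]
    have := hN w
    have h3 : w * (c (c w) * c (a w) * (c w * c (a w))) = 1 := by
      have h4 := hW (c (a w))
      calc w * (c (c w) * c (a w) * (c w * c (a w)))
          = (w * c w * c (c w)) * (c (a w) * c (a w)) := by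
            simp only [mul_left_comm, mul_comm]
        _ = 1 := by rw [this, h4, one_mul]
    exact (eq_inv_of_mul_eq_one_right h3).trans (hi w)
  · refine ⟨c w * c (c w), c (c (c w)) * c (c (c (c w))), ?_⟩
    set x := a w with hx
    have h1 : a (c w) = c (c (c (c x))) := hac w
    have h2 : a (c (c w)) = c (c (c x)) := by rw [hac, h1, hc]
    have h3 : a (c (c (c w))) = c (c x) := by rw [hac, h2, hc]
    have h4 : a (c (c (c (c w)))) = c x := by rw [hac, h3, hc]
    have h5 : c (c (a (c (c (c w))))) = c (c (c (c x))) := by rw [h3]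
    have h6 : c (c (a (c (c (c (c w)))))) = c (c (c x)) := by rw [h4]
    rw [map_mul, map_mul, map_mul, map_mul, h1, h2, h5, h6]
    have := hN w
    have h7 : w * ((c w * c (c w) * (c (c (c (c x))) * c (c (c x)))) *
        (c (c (c w)) * c (c (c (c w))) * (c (c (c (c x))) * c (c (c x))))) = 1 := by
      have h8 := hW (c (c (c (c x))))
      have h9 := hW (c (c (c x)))
      calc _ = (w * c w * c (c w) * c (c (c w)) * c (c (c (c w)))) *
            ((c (c (c (c x))) * c (c (c (c x)))) * (c (c (c x)) * c (c (c x)))) := by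
            simp only [mul_left_comm, mul_comm]
        _ = 1 := by rw [this, h8, h9, one_mul, one_mul]
    exact (eq_inv_of_mul_eq_one_right h7).trans (hi w)

end Comm

section Wrap

variable {W : Type*} [Group W]

theorem comm_of_exp_two (hW : ∀ w : W, w * w = 1) (x y : W) : x * y = y * x := by
  have hi : ∀ x : W, x⁻¹ = x := fun x => inv_eq_of_mul_eq_one_left (hW x)
  have := hi (x * y)
  rw [mul_inv_rev, hi, hi] at this
  exact this.symm

theorem r1' (hW : ∀ w : W, w * w = 1) {a c : W →* W} (h : Data3 a c ∨ Data5 a c) (w : W)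
    (hw : a w = w) : ∃ v, v * a v = w := by
  letI inst : CommGroup W := { (inferInstance : Group W) with mul_comm := comm_of_exp_two hW }
  exact r1 hW h w hw

theorem r2' (hW : ∀ w : W, w * w = 1) {a c : W →* W} (h : Data3 a c ∨ Data5 a c) (w : W) :
    ∃ v v', (v * a v) * (v' * c (c (a v'))) = w := by
  letI inst : CommGroup W := { (inferInstance : Group W) with mul_comm := comm_of_exp_two hW }
  exact r2 hW h w

end Wrap

end Cfsg.Agent.Lib.Ord5.Module
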