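import Cfsg.Agent.Lib.Ord5.Basic
import Cfsg.Agent.Lib.Ord5.Module

/-!
# A normal `2`-subgroup inverted as in a dihedral section is elementary abelian

If all element orders of `M` are at most `5`, `D` is a normal `2`-subgroup, `y` has order `3` or `5`,
`u ^ 2 ∈ D` and `u y u⁻¹ y ∈ D`, then `D` has exponent `2`.
-/

set_option autoImplicit false
set_option linter.style.haveILetI false
set_option linter.unusedSectionVars false

namespace Cfsg.Agent.Lib.Ord5.E1

open Cfsg.Agent.Lib.Ord5.Basic Cfsg.Agent.Lib.Ord5.Module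

universe u

section Setup

variable {Q : Type u} [Group Q] (W : Subgroup Q) [hWn : W.Normal]

/-- Conjugation on a normal subgroup. -/
noncomputable def cj (g : Q) : W →* W := (MulAut.conjNormal g : W ≃* W).toMonoidHom

theorem cj_coe (g : Q) (w : W) : ((cj W g w : W) : Q) = g * w * g⁻¹ :=
  MulAut.conjNormal_apply g w

theorem orderOf_dvd_two_coprime {r : ℕ} (hr : r = 3 ∨ r = 5) {w : Q} (hw : w * w = 1) :
    Nat.Coprime r (orderOf w) := by
  have h1 : orderOf w ∣ 2 := orderOf_dvd_of_pow_eq_one (by rw [pow_two]; exact hw)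
  have h2 : Nat.Coprime r 2 := by rcases hr with rfl | rfl <;> norm_num
  exact Nat.Coprime.coprime_dvd_right h1 h2

theorem data_of (hQ : IsO Q) (hW : ∀ w ∈ W, w * w = 1) {u y : Q} {r : ℕ} (hr : r = 3 ∨ r = 5)
    (hy : orderOf y = r) (huy : u * y * u⁻¹ * y ∈ W) :
    Data3 (cj W u) (cj W y) ∨ Data5 (cj W u) (cj W y) := by
  have hWt : ∀ w : W, w * w = 1 := fun w => Subtype.ext (by simpa using hW w w.2)
  have hcomm : ∀ a ∈ W, ∀ b ∈ W, a * b = b * a := fun a ha b hb =>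
    congrArg Subtype.val (comm_of_exp_two hWt ⟨a, ha⟩ ⟨b, hb⟩)
  have hyr : y ^ r = 1 := hy ▸ pow_orderOf_eq_one y
  have hy1 : y ≠ 1 := by
    rintro rfl
    rw [orderOf_one] at hy
    rcases hr with rfl | rfl <;> omega
  have hfp : ∀ w ∈ W, y * w = w * y → w = 1 := by
    intro w hw hc
    have hco : Nat.Coprime (orderOf y) (orderOf w) := by
      rw [hy]; exact orderOf_dvd_two_coprime hr (hW w hw)
    rcases hQ.eq_one_of_coprime hc hco with h | h
    · exact absurd h hy1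
    · exact h
  have hfix : ∀ n : W, cj W y n = n → n = 1 := by
    intro n hn
    have h1 := congrArg Subtype.val hn
    rw [cj_coe] at h1
    refine Subtype.ext ?_
    refine hfp n n.2 ?_
    calc y * n = y * n * y⁻¹ * y := by group
      _ = n * y := by rw [h1]
  have hrel : ∀ w : W, u * (y * w * y⁻¹) * u⁻¹ = y⁻¹ * (u * w * u⁻¹) * y := by
    intro w
    have hx : u * (w : Q) * u⁻¹ ∈ W := hWn.conj_mem _ w.2 u
    have ht : y⁻¹ * (u * w * u⁻¹) * y ∈ W := by
      have := hWn.conj_mem _ hx y⁻¹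
      simpa using this
    set δ := u * y * u⁻¹ * y with hδ
    have h1 : u * (y * w * y⁻¹) * u⁻¹ = δ * (y⁻¹ * (u * w * u⁻¹) * y) * δ⁻¹ := by
      simp only [hδ]; group
    rw [h1, hcomm _ huy _ ht]
    group
  rcases hr with rfl | rfl
  · left
    have hyy : y * y = y⁻¹ := by
      have : y * y * y = 1 := by rw [← hyr]; simp only [pow_succ, pow_zero, one_mul]
      exact eq_inv_of_mul_eq_one_left this
    have hc3 : ∀ w : W, cj W y (cj W y (cj W y w)) = w := by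
      intro w
      apply Subtype.ext
      simp only [cj_coe]
      calc y * (y * (y * (w : Q) * y⁻¹) * y⁻¹) * y⁻¹ = y ^ 3 * w * (y ^ 3)⁻¹ := by
            simp only [mul_assoc, pow_succ, pow_zero, one_mul, mul_inv_rev]
        _ = w := by rw [hyr]; simp
    refine ⟨?_, hc3, ?_⟩
    · intro w
      apply hfix
      rw [map_mul, map_mul, hc3, comm_of_exp_two hWt _ w, mul_assoc]
    · intro w
      apply Subtype.ext
      simp only [cj_coe]
      rw [hrel]
      calc y⁻¹ * (u * (w : Q) * u⁻¹) * y = (y * y) * (u * w * u⁻¹) * (y * y)⁻¹ := by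
            rw [hyy]; simp
        _ = _ := by group
  · right
    have hyy : y * y * y * y = y⁻¹ := by
      have : y * y * y * y * y = 1 := by rw [← hyr]; simp only [pow_succ, pow_zero, one_mul]
      exact eq_inv_of_mul_eq_one_left this
    have hc3 : ∀ w : W, cj W y (cj W y (cj W y (cj W y (cj W y w)))) = w := by
      intro w
      apply Subtype.ext
      simp only [cj_coe]
      calc y * (y * (y * (y * (y * (w : Q) * y⁻¹) * y⁻¹) * y⁻¹) * y⁻¹) * y⁻¹
          = y ^ 5 * w * (y ^ 5)⁻¹ := by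
            simp only [mul_assoc, pow_succ, pow_zero, one_mul, mul_inv_rev]
        _ = w := by rw [hyr]; simp
    refine ⟨?_, hc3, ?_⟩
    · intro w
      apply hfix
      rw [map_mul, map_mul, map_mul, map_mul, hc3]
      generalize cj W y w = a1
      generalize cj W y a1 = a2
      generalize cj W y a2 = a3
      generalize cj W y a3 = a4
      letI inst : CommGroup W := { (inferInstance : Group W) with mul_comm := comm_of_exp_two hWt }
      simp only [mul_left_comm, mul_comm]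
    · intro w
      apply Subtype.ext
      simp only [cj_coe]
      rw [hrel]
      calc y⁻¹ * (u * (w : Q) * u⁻¹) * y = (y * y * y * y) * (u * w * u⁻¹) * (y * y * y * y)⁻¹ := by
            rw [hyy]; simp
        _ = _ := by group

end Setup

section Omega

variable {M : Type u} [Group M]

/-- The involutions of the center of `D`, with the identity. -/
def omegaCenter (D : Subgroup M) : Subgroup M where
  carrier := {z | z ∈ D ∧ (∀ d ∈ D, z * d = d * z) ∧ z * z = 1}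
  mul_mem' := by
    rintro a b ⟨ha, hac, ha2⟩ ⟨hb, hbc, hb2⟩
    refine ⟨D.mul_mem ha hb, fun d hd => ?_, ?_⟩
    · rw [mul_assoc, hbc d hd, ← mul_assoc, hac d hd, mul_assoc]
    · calc a * b * (a * b) = a * (b * a) * b := by group
        _ = a * (a * b) * b := by rw [hbc a ha]
        _ = (a * a) * (b * b) := by group
        _ = 1 := by rw [ha2, hb2, one_mul]
  one_mem' := ⟨D.one_mem, fun d _ => by simp, by simp⟩
  inv_mem' := by
    rintro a ⟨ha, hac, ha2⟩
    have hi : a⁻¹ = a := inv_eq_of_mul_eq_one_left ha2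
    change a⁻¹ ∈ D ∧ (∀ d ∈ D, a⁻¹ * d = d * a⁻¹) ∧ a⁻¹ * a⁻¹ = 1
    rw [hi]
    exact ⟨ha, hac, ha2⟩

theorem mem_omegaCenter {D : Subgroup M} {z : M} :
    z ∈ omegaCenter D ↔ z ∈ D ∧ (∀ d ∈ D, z * d = d * z) ∧ z * z = 1 := Iff.rfl

instance omegaCenter_normal (D : Subgroup M) [hD : D.Normal] : (omegaCenter D).Normal where
  conj_mem := by
    rintro z ⟨hz, hzc, hz2⟩ g
    refine ⟨hD.conj_mem _ hz g, fun d hd => ?_, ?_⟩
    · have h1 : g⁻¹ * d * g ∈ D := by
        have := hD.conj_mem _ hd g⁻¹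
        simpa using this
      have h2 := hzc _ h1
      calc g * z * g⁻¹ * d = g * (z * (g⁻¹ * d * g)) * g⁻¹ := by group
        _ = g * ((g⁻¹ * d * g) * z) * g⁻¹ := by rw [h2]
        _ = d * (g * z * g⁻¹) := by group
    · calc g * z * g⁻¹ * (g * z * g⁻¹) = g * (z * z) * g⁻¹ := by group
        _ = 1 := by rw [hz2]; group

variable [Finite M]

theorem exists_omegaCenter (hM : IsO M) (D : Subgroup M) (hD : IsPGroup 2 D) (hD1 : D ≠ ⊥) :
    ∃ z ∈ omegaCenter D, z ≠ 1 := by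
  haveI : Fact (Nat.Prime 2) := ⟨Nat.prime_two⟩
  haveI : Nontrivial D := (Subgroup.nontrivial_iff_ne_bot D).2 hD1
  haveI := hD.center_nontrivial
  obtain ⟨z, hz⟩ := exists_ne (1 : Subgroup.center D)
  have hz1 : ((z : D) : M) ≠ 1 := fun h => hz (Subtype.ext (Subtype.ext h))
  have hzc : ∀ d ∈ D, ((z : D) : M) * d = d * (z : D) := fun d hd => by
    have := Subgroup.mem_center_iff.1 z.2 ⟨d, hd⟩
    exact (congrArg Subtype.val this).symm
  obtain ⟨k, hk⟩ := (IsPGroup.iff_orderOf.1 hD) (z : D)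
  have hk' : orderOf ((z : D) : M) = 2 ^ k := by rw [← Subgroup.orderOf_coe] at hk; exact hk
  have h4 := hM.pow_four hk'
  by_cases h2 : ((z : D) : M) * (z : D) = 1
  · exact ⟨_, ⟨(z : D).2, hzc, h2⟩, hz1⟩
  · refine ⟨((z : D) : M) * (z : D), ⟨D.mul_mem (z : D).2 (z : D).2, fun d hd => ?_, ?_⟩, h2⟩
    · rw [mul_assoc, hzc d hd, ← mul_assoc, hzc d hd, mul_assoc]
    · calc ((z : D) : M) * (z : D) * (((z : D) : M) * (z : D)) = ((z : D) : M) ^ 4 := by
            simp only [pow_succ, pow_zero, one_mul, mul_assoc]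
        _ = 1 := h4

theorem pow_four_of_sq_mem (hM : IsO M) {D : Subgroup M} (hD : IsPGroup 2 D) {g : M}
    (h : g * g ∈ D) : g ^ 4 = 1 := by
  obtain ⟨k, hk⟩ := (IsPGroup.iff_orderOf.1 hD) ⟨g * g, h⟩
  have h1 : (g * g) ^ (2 ^ k) = 1 := by
    have := pow_orderOf_eq_one (⟨g * g, h⟩ : D)
    rw [hk] at this
    simpa using congrArg Subtype.val this
  have h2 : g ^ (2 ^ (k + 1)) = 1 := by
    rw [pow_succ, mul_comm, pow_mul, pow_two, h1]
  obtain ⟨m, -, hm⟩ := (Nat.dvd_prime_pow Nat.prime_two).1 (orderOf_dvd_of_pow_eq_one h2)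
  exact hM.pow_four hm

end Omega

section Main

variable {M : Type u} [Group M] [Finite M]

theorem orderOf_mk {D : Subgroup M} [D.Normal] {y : M} {r : ℕ} (hr : r = 3 ∨ r = 5)
    (hy : orderOf y = r) : orderOf (QuotientGroup.mk' (omegaCenter D) y) = r := by
  haveI : Fact r.Prime := ⟨by rcases hr with rfl | rfl <;> norm_num⟩
  apply orderOf_eq_prime
  · rw [← map_pow, ← hy, pow_orderOf_eq_one, map_one]
  · intro h
    have h1 : y ∈ omegaCenter D := (QuotientGroup.eq_one_iff y).1 h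
    have h2 := h1.2.2
    have h3 : orderOf y ∣ 2 := orderOf_dvd_of_pow_eq_one (by rw [pow_two]; exact h2)
    rw [hy] at h3
    rcases hr with rfl | rfl <;> revert h3 <;> decide

theorem key1 (hM : IsO M) (D : Subgroup M) [hDn : D.Normal] (hD : IsPGroup 2 D)
    (hexp : ∀ d ∈ D, d * d ∈ omegaCenter D) {u y : M} {r : ℕ} (hr : r = 3 ∨ r = 5)
    (hy : orderOf y = r) (hu : u * u ∈ D) (huy : u * y * u⁻¹ * y ∈ D) {d : M} (hd : d ∈ D)
    (hfix : u * d * u⁻¹ * d⁻¹ ∈ omegaCenter D) : d * d = 1 := by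
  let π := QuotientGroup.mk' (omegaCenter D)
  let W := D.map π
  haveI hWn : W.Normal := Subgroup.Normal.map hDn π (QuotientGroup.mk'_surjective _)
  have hWe : ∀ w ∈ W, w * w = 1 := by
    rintro _ ⟨x, hx, rfl⟩
    rw [← map_mul]
    exact (QuotientGroup.eq_one_iff _).2 (hexp x hx)
  have hQ : IsO (M ⧸ omegaCenter D) := hM.quotient _
  have hyπ : orderOf (π y) = r := orderOf_mk hr hy
  have hdat : Data3 (cj W (π u)) (cj W (π y)) ∨ Data5 (cj W (π u)) (cj W (π y)) :=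
    data_of W hQ hWe hr hyπ (u := π u) ⟨_, huy, by simp⟩
  have hWt : ∀ w : W, w * w = 1 := fun w => Subtype.ext (by simpa using hWe w w.2)
  let ub : W := ⟨π u * π u, ⟨u * u, hu, by simp⟩⟩
  let dd : W := ⟨π d, ⟨d, hd, rfl⟩⟩
  have hfix' : cj W (π u) dd = dd := by
    apply Subtype.ext
    rw [cj_coe]
    have h1 : π (u * d * u⁻¹ * d⁻¹) = 1 := (QuotientGroup.eq_one_iff _).2 hfix
    simp only [map_mul, map_inv] at h1
    exact mul_inv_eq_one.1 h1
  have hub : cj W (π u) ub = ub := by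
    apply Subtype.ext
    rw [cj_coe]
    change π u * (π u * π u) * (π u)⁻¹ = π u * π u
    group
  obtain ⟨v, hv⟩ := r1' hWt hdat (dd * ub) (by rw [map_mul, hfix', hub])
  obtain ⟨d₀, hd₀, hd₀v⟩ := v.2
  let g := d₀ * u
  have h1 : (v : M ⧸ omegaCenter D) * (π u * v * (π u)⁻¹) = π d * (π u * π u) := by
    have := congrArg Subtype.val hv
    rw [Subgroup.coe_mul, cj_coe] at this
    exact this
  have hgg : π (g * g) = π d := by
    calc π (g * g) = (v : M ⧸ omegaCenter D) * (π u * v * (π u)⁻¹) * (π u * π u) := by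
          rw [← hd₀v]
          simp only [g, map_mul]
          group
      _ = π d * (π u * π u) * (π u * π u) := by rw [h1]
      _ = π d := by rw [mul_assoc, hWe _ ub.2, mul_one]
  have hz : d⁻¹ * (g * g) ∈ omegaCenter D := QuotientGroup.eq.1 hgg.symm
  obtain ⟨z, hz', hzeq⟩ : ∃ z ∈ omegaCenter D, g * g = d * z :=
    ⟨_, hz, by group⟩
  have hgD : g * g ∈ D := by rw [hzeq]; exact D.mul_mem hd hz'.1
  have hg4 := pow_four_of_sq_mem hM hD hgD
  have h4 : (g * g) * (g * g) = 1 := by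
    rw [← hg4]; simp only [pow_succ, pow_zero, one_mul, mul_assoc]
  rw [hzeq] at h4
  have hcz := hz'.2.1 d hd
  calc d * d = d * d * (z * z) := by rw [hz'.2.2, mul_one]
    _ = d * (z * d) * z := by rw [hcz]; group
    _ = d * z * (d * z) := by group
    _ = 1 := h4

theorem comm_mem (D : Subgroup M) (hexp : ∀ d ∈ D, d * d ∈ omegaCenter D) {x t : M} (hx : x ∈ D)
    (ht : t ∈ D) : x * t * x⁻¹ * t⁻¹ ∈ omegaCenter D := by
  have ha := hexp _ (D.mul_mem hx ht)
  have hb := hexp _ hx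
  have hc := hexp _ ht
  have hbt : (x * x)⁻¹ * t = t * (x * x)⁻¹ := (show Commute (x * x) t from hb.2.1 t ht).inv_left
  have h : x * t * x⁻¹ * t⁻¹ = (x * t * (x * t)) * ((x * x)⁻¹ * (t * t)⁻¹) := by
    calc x * t * x⁻¹ * t⁻¹ = x * t * (x * (x * x)⁻¹) * (t * (t * t)⁻¹) := by group
      _ = x * t * x * ((x * x)⁻¹ * t) * (t * t)⁻¹ := by group
      _ = x * t * x * (t * (x * x)⁻¹) * (t * t)⁻¹ := by rw [hbt]
      _ = _ := by group
  rw [h]
  exact (omegaCenter D).mul_mem ha ((omegaCenter D).mul_mem ((omegaCenter D).inv_mem hb)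
    ((omegaCenter D).inv_mem hc))

/-- Products `t * u t u⁻¹` are fixed by `u` modulo the center part. -/
theorem fix_norm (D : Subgroup M) [hDn : D.Normal] (hexp : ∀ d ∈ D, d * d ∈ omegaCenter D)
    {u : M} (hu : u * u ∈ D) {t : M} (ht : t ∈ D) :
    u * (t * (u * t * u⁻¹)) * u⁻¹ * (t * (u * t * u⁻¹))⁻¹ ∈ omegaCenter D := by
  have ht'D : u * t * u⁻¹ ∈ D := hDn.conj_mem _ ht u
  have h1 : u * (t * (u * t * u⁻¹)) * u⁻¹ * (t * (u * t * u⁻¹))⁻¹ =
      (u * t * u⁻¹) * ((u * u) * t * (u * u)⁻¹ * t⁻¹) * (u * t * u⁻¹)⁻¹ *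
        ((u * t * u⁻¹) * t * (u * t * u⁻¹)⁻¹ * t⁻¹) := by
    group
  rw [h1]
  refine (omegaCenter D).mul_mem ?_ (comm_mem D hexp ht'D ht)
  exact (omegaCenter_normal D).conj_mem _ (comm_mem D hexp hu ht) _

theorem fix_mul (Z : Subgroup M) [hZ : Z.Normal] {u a b : M} (ha : u * a * u⁻¹ * a⁻¹ ∈ Z)
    (hb : u * b * u⁻¹ * b⁻¹ ∈ Z) : u * (a * b) * u⁻¹ * (a * b)⁻¹ ∈ Z := by
  have h1 : u * (a * b) * u⁻¹ * (a * b)⁻¹ =
      (u * a * u⁻¹) * (u * b * u⁻¹ * b⁻¹) * (u * a * u⁻¹)⁻¹ * (u * a * u⁻¹ * a⁻¹) := by group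
  rw [h1]
  exact Z.mul_mem (hZ.conj_mem _ hb _) ha

theorem comm_of_squares {x s : M} (hx : x * x = 1) (hs : s * s = 1) (hxs : x * s * (x * s) = 1) :
    x * s = s * x := by
  have h1 : (x * s)⁻¹ = x * s := inv_eq_of_mul_eq_one_left hxs
  rw [mul_inv_rev, inv_eq_of_mul_eq_one_left hx, inv_eq_of_mul_eq_one_left hs] at h1
  exact h1.symm

theorem fix_comm (hM : IsO M) (D : Subgroup M) [hDn : D.Normal] (hD : IsPGroup 2 D)
    (hexp : ∀ d ∈ D, d * d ∈ omegaCenter D) {u y : M} {r : ℕ} (hr : r = 3 ∨ r = 5)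
    (hy : orderOf y = r) (hu : u * u ∈ D) (huy : u * y * u⁻¹ * y ∈ D) {x t : M} (hx : x ∈ D)
    (ht : t ∈ D) (hfix : u * x * u⁻¹ * x⁻¹ ∈ omegaCenter D) :
    u * (x * t * x⁻¹ * t⁻¹) * u⁻¹ = x * t * x⁻¹ * t⁻¹ := by
  have ht'D : u * t * u⁻¹ ∈ D := hDn.conj_mem _ ht u
  have hsD : t * (u * t * u⁻¹) ∈ D := D.mul_mem ht ht'D
  have hfs := fix_norm D hexp hu ht
  have hfxs := fix_mul (omegaCenter D) hfix hfs
  have hs2 := key1 hM D hD hexp hr hy hu huy hsD hfs
  have hx2 := key1 hM D hD hexp hr hy hu huy hx hfix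
  have hxs2 := key1 hM D hD hexp hr hy hu huy (D.mul_mem hx hsD) hfxs
  have hcomm := comm_of_squares hx2 hs2 hxs2
  have hk := comm_mem D hexp hx ht
  have hk' := comm_mem D hexp hx ht'D
  set t' := u * t * u⁻¹ with ht'
  -- `k * k' = 1`
  have h1 : (x * t * x⁻¹ * t⁻¹) * (t * (x * t' * x⁻¹ * t'⁻¹) * t⁻¹) = 1 := by
    have : x * (t * t') * x⁻¹ * (t * t')⁻¹ = 1 := by
      rw [hcomm]; group
    rw [← this]; group
  have hk't : t * (x * t' * x⁻¹ * t'⁻¹) * t⁻¹ = x * t' * x⁻¹ * t'⁻¹ := by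
    have := hk'.2.1 t ht
    rw [← this]; group
  rw [hk't] at h1
  have hkk' : x * t' * x⁻¹ * t'⁻¹ = x * t * x⁻¹ * t⁻¹ := by
    have h2 := inv_eq_of_mul_eq_one_right h1
    rw [inv_eq_of_mul_eq_one_left hk.2.2] at h2
    exact h2.symm
  set ζ := u * x * u⁻¹ * x⁻¹ with hζ
  have hxt' : x * t' * x⁻¹ ∈ D := D.mul_mem (D.mul_mem hx ht'D) (D.inv_mem hx)
  have e1 : u * (x * t * x⁻¹ * t⁻¹) * u⁻¹ = ζ * (x * t' * x⁻¹) * ζ⁻¹ * t'⁻¹ := by
    simp only [hζ, ht']; group
  rw [e1, hfix.2.1 _ hxt', ← hkk']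
  group

theorem comm_step (hM : IsO M) (D : Subgroup M) [hDn : D.Normal] (hD : IsPGroup 2 D)
    (hexp : ∀ d ∈ D, d * d ∈ omegaCenter D) {u y : M} {r : ℕ} (hr : r = 3 ∨ r = 5)
    (hy : orderOf y = r) (hu : u * u ∈ D) (huy : u * y * u⁻¹ * y ∈ D) {x x' : M} (hx : x ∈ D)
    (hx' : x' ∈ D) (hfix : u * x * u⁻¹ * x⁻¹ ∈ omegaCenter D)
    (hfix' : (y * u * y⁻¹) * x' * (y * u * y⁻¹)⁻¹ * x'⁻¹ ∈ omegaCenter D) :
    x * x' = x' * x := by
  have hu' : (y * u * y⁻¹) * (y * u * y⁻¹) ∈ D := by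
    have := hDn.conj_mem _ hu y
    have e : (y * u * y⁻¹) * (y * u * y⁻¹) = y * (u * u) * y⁻¹ := by group
    rw [e]; exact this
  have huy' : (y * u * y⁻¹) * y * (y * u * y⁻¹)⁻¹ * y ∈ D := by
    have := hDn.conj_mem _ huy y
    have e : (y * u * y⁻¹) * y * (y * u * y⁻¹)⁻¹ * y = y * (u * y * u⁻¹ * y) * y⁻¹ := by group
    rw [e]; exact this
  have h1 := fix_comm hM D hD hexp hr hy hu huy hx hx' hfix
  have h2 := fix_comm hM D hD hexp hr hy hu' huy' hx' hx hfix'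
  have hk := comm_mem D hexp hx hx'
  set k := x * x' * x⁻¹ * x'⁻¹ with hkdef
  have h2' : (y * u * y⁻¹) * k * (y * u * y⁻¹)⁻¹ = k := by
    have e : x' * x * x'⁻¹ * x⁻¹ = k⁻¹ := by rw [hkdef]; group
    rw [e] at h2
    have h3 : (y * u * y⁻¹) * k⁻¹ * (y * u * y⁻¹)⁻¹ = ((y * u * y⁻¹) * k * (y * u * y⁻¹)⁻¹)⁻¹ := by
      group
    rw [h3] at h2
    exact inv_injective h2
  have hcu : Commute k u := by
    have : u * k = k * u := by
      calc u * k = u * k * u⁻¹ * u := by group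
        _ = k * u := by rw [h1]
    exact this.symm
  have hcu' : Commute k (y * u * y⁻¹) := by
    have : (y * u * y⁻¹) * k = k * (y * u * y⁻¹) := by
      calc (y * u * y⁻¹) * k = (y * u * y⁻¹) * k * (y * u * y⁻¹)⁻¹ * (y * u * y⁻¹) := by group
        _ = k * (y * u * y⁻¹) := by rw [h2']
    exact this.symm
  have he : y⁻¹ * (u * u) * y ∈ D := by
    have := hDn.conj_mem _ hu y⁻¹
    simpa using this
  have hcd : Commute k (u * y * u⁻¹ * y) := hk.2.1 _ huy
  have hce : Commute k (y⁻¹ * (u * u) * y) := hk.2.1 _ he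
  have hyy : y⁻¹ * y⁻¹ = (y⁻¹ * (u * u) * y)⁻¹ * (u * y * u⁻¹ * y)⁻¹ * (u * (y * u * y⁻¹)) := by
    group
  have hcyy : Commute k (y⁻¹ * y⁻¹) := by
    rw [hyy]
    exact (hce.inv_right.mul_right hcd.inv_right).mul_right (hcu.mul_right hcu')
  have hyr : y ^ r = 1 := hy ▸ pow_orderOf_eq_one y
  have hcy : Commute k y := by
    rcases hr with rfl | rfl
    · have e : y⁻¹ * y⁻¹ = y := by
        rw [← mul_inv_rev, inv_eq_iff_mul_eq_one, ← hyr]
        simp only [pow_succ, pow_zero, one_mul]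
      rwa [e] at hcyy
    · have e : (y⁻¹ * y⁻¹) * (y⁻¹ * y⁻¹) = y := by
        have e1 : y * y * y * y * y = 1 := by rw [← hyr]; simp only [pow_succ, pow_zero, one_mul]
        have e2 : (y⁻¹ * y⁻¹) * (y⁻¹ * y⁻¹) = (y * y * y * y)⁻¹ := by group
        rw [e2, inv_eq_iff_mul_eq_one]
        exact e1
      have := hcyy.mul_right hcyy
      rwa [e] at this
  have hy1 : y ≠ 1 := by
    rintro rfl
    rw [orderOf_one] at hy
    rcases hr with rfl | rfl <;> omega
  have hco : Nat.Coprime (orderOf y) (orderOf k) := by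
    rw [hy]; exact orderOf_dvd_two_coprime hr hk.2.2
  rcases hM.eq_one_of_coprime hcy.symm hco with h | h
  · exact absurd h hy1
  · have h3 : x * x' * x⁻¹ * x'⁻¹ = 1 := h
    have h4 : x * x' * x⁻¹ = x' := mul_inv_eq_one.1 h3
    exact mul_inv_eq_iff_eq_mul.1 h4

theorem step (hM : IsO M) (D : Subgroup M) [hDn : D.Normal] (hD : IsPGroup 2 D)
    (hexp : ∀ d ∈ D, d * d ∈ omegaCenter D) {u y : M} {r : ℕ} (hr : r = 3 ∨ r = 5)
    (hy : orderOf y = r) (hu : u * u ∈ D) (huy : u * y * u⁻¹ * y ∈ D) {d : M} (hd : d ∈ D) :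
    d * d = 1 := by
  have hu' : (y * u * y⁻¹) * (y * u * y⁻¹) ∈ D := by
    have := hDn.conj_mem _ hu y
    have e : (y * u * y⁻¹) * (y * u * y⁻¹) = y * (u * u) * y⁻¹ := by group
    rw [e]; exact this
  have huy' : (y * u * y⁻¹) * y * (y * u * y⁻¹)⁻¹ * y ∈ D := by
    have := hDn.conj_mem _ huy y
    have e : (y * u * y⁻¹) * y * (y * u * y⁻¹)⁻¹ * y = y * (u * y * u⁻¹ * y) * y⁻¹ := by group
    rw [e]; exact this
  let π := QuotientGroup.mk' (omegaCenter D)
  let W := D.map π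
  haveI hWn : W.Normal := Subgroup.Normal.map hDn π (QuotientGroup.mk'_surjective _)
  have hWe : ∀ w ∈ W, w * w = 1 := by
    rintro _ ⟨x, hx, rfl⟩
    rw [← map_mul]
    exact (QuotientGroup.eq_one_iff _).2 (hexp x hx)
  have hQ : IsO (M ⧸ omegaCenter D) := hM.quotient _
  have hyπ : orderOf (π y) = r := orderOf_mk hr hy
  have hδ : π u * π y * (π u)⁻¹ * π y ∈ W := ⟨_, huy, by simp⟩
  have hdat : Data3 (cj W (π u)) (cj W (π y)) ∨ Data5 (cj W (π u)) (cj W (π y)) :=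
    data_of W hQ hWe hr hyπ (u := π u) hδ
  have hWt : ∀ w : W, w * w = 1 := fun w => Subtype.ext (by simpa using hWe w w.2)
  have hcomm : ∀ a ∈ W, ∀ b ∈ W, a * b = b * a := fun a ha b hb =>
    congrArg Subtype.val (comm_of_exp_two hWt ⟨a, ha⟩ ⟨b, hb⟩)
  obtain ⟨v, v', hvv⟩ := r2' hWt hdat (⟨π d, ⟨d, hd, rfl⟩⟩ : W)
  obtain ⟨d₁, hd₁, hd₁v⟩ := v.2
  obtain ⟨d₂, hd₂, hd₂v⟩ := v'.2
  have hvv' := congrArg Subtype.val hvv
  simp only [Subgroup.coe_mul, cj_coe] at hvv'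
  -- the conjugation by `u'`
  have ha' : π y * (π y * (π u * v' * (π u)⁻¹) * (π y)⁻¹) * (π y)⁻¹ =
      π (y * u * y⁻¹) * v' * (π (y * u * y⁻¹))⁻¹ := by
    have hx : π u * (v' : M ⧸ omegaCenter D) * (π u)⁻¹ ∈ W := hWn.conj_mem _ v'.2 _
    have e1 : π (y * u * y⁻¹) * v' * (π (y * u * y⁻¹))⁻¹ =
        π y * (π y * ((π u * π y * (π u)⁻¹ * π y)⁻¹ * (π u * v' * (π u)⁻¹) *
          (π u * π y * (π u)⁻¹ * π y)) * (π y)⁻¹) * (π y)⁻¹ := by
      simp only [map_mul, map_inv]; group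
    have e2 : (π u * π y * (π u)⁻¹ * π y)⁻¹ * (π u * v' * (π u)⁻¹) * (π u * π y * (π u)⁻¹ * π y) =
        π u * v' * (π u)⁻¹ := by
      rw [mul_assoc, hcomm _ hx _ hδ]; group
    rw [e1, e2]
  have hfx := fix_norm D hexp hu hd₁
  have hfx' := fix_norm D hexp hu' hd₂
  have hxD : d₁ * (u * d₁ * u⁻¹) ∈ D := D.mul_mem hd₁ (hDn.conj_mem _ hd₁ u)
  have hxD' : d₂ * ((y * u * y⁻¹) * d₂ * (y * u * y⁻¹)⁻¹) ∈ D :=
    D.mul_mem hd₂ (hDn.conj_mem _ hd₂ _)
  have hx2 := key1 hM D hD hexp hr hy hu huy hxD hfx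
  have hx'2 := key1 hM D hD hexp hr hy hu' huy' hxD' hfx'
  have hcxx' := comm_step hM D hD hexp hr hy hu huy hxD hxD' hfx hfx'
  set x := d₁ * (u * d₁ * u⁻¹) with hxdef
  set x' := d₂ * ((y * u * y⁻¹) * d₂ * (y * u * y⁻¹)⁻¹) with hx'def
  have hπ : π (x * x') = π d := by
    rw [ha'] at hvv'
    rw [← hvv', ← hd₁v, ← hd₂v]
    simp only [hxdef, hx'def, map_mul, map_inv]
  have hz : (x * x')⁻¹ * d ∈ omegaCenter D := QuotientGroup.eq.1 hπ
  obtain ⟨z, hz', hzeq⟩ : ∃ z ∈ omegaCenter D, d = x * x' * z := ⟨_, hz, by group⟩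
  have hzc := hz'.2.1 _ (D.mul_mem hxD hxD')
  have hzz := hz'.2.2
  rw [hzeq]
  calc x * x' * z * (x * x' * z) = x * x' * (z * (x * x')) * z := by group
    _ = x * x' * ((x * x') * z) * z := by rw [hzc]
    _ = x * (x' * x) * x' * (z * z) := by group
    _ = x * (x * x') * x' * (z * z) := by rw [hcxx']
    _ = (x * x) * (x' * x') * (z * z) := by group
    _ = 1 := by rw [hx2, hx'2, hzz]; simp

theorem card_map_lt {G H : Type*} [Group G] [Group H] [Finite G] (D : Subgroup G) (f : G →* H)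
    {z : G} (hz : z ∈ D) (hz1 : z ≠ 1) (hf : f z = 1) : Nat.card (D.map f) < Nat.card D := by
  classical
  let g : D → D.map f := fun d => ⟨f d, ⟨d, d.2, rfl⟩⟩
  have hs : Function.Surjective g := by
    rintro ⟨_, x, hx, rfl⟩
    exact ⟨⟨x, hx⟩, rfl⟩
  haveI : Finite (D.map f) := Finite.of_surjective g hs
  haveI := Fintype.ofFinite D
  haveI := Fintype.ofFinite (D.map f)
  rw [Nat.card_eq_fintype_card, Nat.card_eq_fintype_card]
  refine Fintype.card_lt_of_surjective_not_injective g hs ?_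
  intro hinj
  have h1 : g ⟨z, hz⟩ = g 1 := Subtype.ext (by simp [g, hf])
  have h2 := hinj h1
  exact hz1 (congrArg Subtype.val h2)

/-- **Lemma E1.** -/
theorem main {M : Type u} [Group M] [Finite M] (hM : IsO M) (D : Subgroup M) [hDn : D.Normal]
    (hD : IsPGroup 2 D) {u y : M} {r : ℕ} (hr : r = 3 ∨ r = 5)
    (hy : orderOf y = r) (hu : u * u ∈ D) (huy : u * y * u⁻¹ * y ∈ D) {d : M} (hd : d ∈ D) :
    d * d = 1 := by
  induction hn : Nat.card D using Nat.strong_induction_on generalizing M d u y with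
  | _ n ih =>
    by_cases hD1 : D = ⊥
    · subst hD1
      rw [Subgroup.mem_bot] at hd
      simp [hd]
    refine step hM D hD ?_ hr hy hu huy hd
    intro d' hd'
    let π := QuotientGroup.mk' (omegaCenter D)
    let W := D.map π
    haveI hWn : W.Normal := Subgroup.Normal.map hDn π (QuotientGroup.mk'_surjective _)
    have hWD : IsPGroup 2 W := hD.map π
    have hlt : Nat.card W < n := by
      obtain ⟨z, hz, hz1⟩ := exists_omegaCenter hM D hD hD1
      rw [← hn]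
      exact card_map_lt D π hz.1 hz1 ((QuotientGroup.eq_one_iff _).2 hz)
    have h := ih _ hlt (hM.quotient _) W hWD (u := π u) (y := π y) (orderOf_mk hr hy)
      ⟨_, hu, by simp⟩ ⟨_, huy, by simp⟩ (d := π d') ⟨d', hd', rfl⟩ rfl
    rw [← map_mul] at h
    exact (QuotientGroup.eq_one_iff _).1 h

end Main

end Cfsg.Agent.Lib.Ord5.E1
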