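import Mathlib

/-!
# The arithmetic of the orders
-/

set_option autoImplicit false

namespace Cfsg.Agent.Lib.Ord5.Arith

theorem bound {A x y f g n m : ℕ} (hA : 0 < A) (hx : 0 < x) (hy : 0 < y) (hf : 0 < f) (hg : 0 < g)
    (h1 : n * f = A * y) (h2 : m * g = A * x) (hn : x ∣ n - 1) (hm : y ∣ m - 1) (hn1 : 2 ≤ n)
    (hm1 : 2 ≤ m) : x ≤ A * g + A * A * f ∧ y ≤ A * f + A * A * g := by
  obtain ⟨k, hk⟩ := hn
  obtain ⟨l, hl⟩ := hm
  have hk1 : 1 ≤ k := by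
    rcases k with _ | k
    · simp at hk; omega
    · omega
  have hl1 : 1 ≤ l := by
    rcases l with _ | l
    · simp at hl; omega
    · omega
  have en : n = 1 + x * k := by omega
  have em : m = 1 + y * l := by omega
  subst en
  subst em
  obtain ⟨K, hK⟩ : ∃ K, K = k * f := ⟨_, rfl⟩
  obtain ⟨L, hL⟩ : ∃ L, L = l * g := ⟨_, rfl⟩
  have e1 : A * y = f + K * x := by rw [← h1, hK]; ring
  have e2 : A * x = g + L * y := by rw [← h2, hL]; ring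
  have hK1 : 1 ≤ K := by rw [hK]; exact Nat.mul_pos hk1 hf
  have hL1 : 1 ≤ L := by rw [hL]; exact Nat.mul_pos hl1 hg
  have e3 : A * A * x = A * g + L * f + L * K * x := by
    calc A * A * x = A * (A * x) := by ring
      _ = A * (g + L * y) := by rw [e2]
      _ = A * g + L * (A * y) := by ring
      _ = A * g + L * (f + K * x) := by rw [e1]
      _ = _ := by ring
  have e4 : A * A * y = A * f + K * g + L * K * y := by
    calc A * A * y = A * (A * y) := by ring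
      _ = A * (f + K * x) := by rw [e1]
      _ = A * f + K * (A * x) := by ring
      _ = A * f + K * (g + L * y) := by rw [e2]
      _ = _ := by ring
  have hlt : L * K < A * A := by
    by_contra hcon
    push Not at hcon
    have h3 : A * A * x ≤ L * K * x := Nat.mul_le_mul_right _ hcon
    have h4 : 0 < A * g := Nat.mul_pos hA hg
    omega
  have hLL : L ≤ L * K := Nat.le_mul_of_pos_right _ hK1
  have hKK : K ≤ L * K := Nat.le_mul_of_pos_left _ hL1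
  have h5 : (L * K + 1) * x ≤ A * A * x := Nat.mul_le_mul_right _ hlt
  have h6 : (L * K + 1) * y ≤ A * A * y := Nat.mul_le_mul_right _ hlt
  rw [Nat.add_mul, one_mul] at h5 h6
  have h7 : L * f ≤ A * A * f := Nat.mul_le_mul_right _ (by omega)
  have h8 : K * g ≤ A * A * g := Nat.mul_le_mul_right _ (by omega)
  constructor <;> omega

theorem check : ∀ a ∈ List.range 9, ∀ b ∈ List.range 12, ∀ c ∈ List.range 9,
    ∀ f ∈ [1, 2, 4, 8, 5], ∀ g ∈ [1, 2, 4, 8, 3],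
    1 ≤ a → 1 ≤ b → 1 ≤ c → f ∣ 3 ^ b - 1 → g ∣ 5 ^ c - 1 → f ∣ 2 ^ a * 5 ^ c →
      2 ^ a * 5 ^ c / f ≠ 1 → 3 ^ b ∣ 2 ^ a * 5 ^ c / f - 1 → g ∣ 2 ^ a * 3 ^ b →
      2 ^ a * 3 ^ b / g ≠ 1 → 5 ^ c ∣ 2 ^ a * 3 ^ b / g - 1 →
      (a ≤ 6 ∧ 2 ^ a * 3 ^ b * 5 ^ c ≤ 1092) ∨ (7 ≤ a ∧ 3 ^ b * 5 ^ c < 2 ^ a) := by
  decide +kernel

theorem main {a b c f g n m : ℕ} (ha1 : 1 ≤ a) (ha8 : a ≤ 8) (hb : 1 ≤ b) (hc : 1 ≤ c)
    (hf : f = 1 ∨ f = 2 ∨ f = 4 ∨ f = 8 ∨ f = 5) (hg : g = 1 ∨ g = 2 ∨ g = 4 ∨ g = 8 ∨ g = 3)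
    (hfd : f ∣ 3 ^ b - 1) (hgd : g ∣ 5 ^ c - 1)
    (hn : n * (f * 3 ^ b) = 2 ^ a * 3 ^ b * 5 ^ c) (hm : m * (g * 5 ^ c) = 2 ^ a * 3 ^ b * 5 ^ c)
    (hnd : 3 ^ b ∣ n - 1) (hmd : 5 ^ c ∣ m - 1) (hn1 : 2 ≤ n) (hm1 : 2 ≤ m) :
    (a ≤ 6 ∧ 2 ^ a * 3 ^ b * 5 ^ c ≤ 1092) ∨ (7 ≤ a ∧ 3 ^ b * 5 ^ c < 2 ^ a) := by
  have hfpos : 0 < f := by rcases hf with rfl | rfl | rfl | rfl | rfl <;> norm_num
  have hgpos : 0 < g := by rcases hg with rfl | rfl | rfl | rfl | rfl <;> norm_num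
  have hf8 : f ≤ 8 := by rcases hf with rfl | rfl | rfl | rfl | rfl <;> norm_num
  have hg8 : g ≤ 8 := by rcases hg with rfl | rfl | rfl | rfl | rfl <;> norm_num
  have hx : 0 < 3 ^ b := by positivity
  have hy : 0 < 5 ^ c := by positivity
  have h1 : n * f = 2 ^ a * 5 ^ c := by
    apply Nat.eq_of_mul_eq_mul_right hx
    calc n * f * 3 ^ b = n * (f * 3 ^ b) := by ring
      _ = 2 ^ a * 3 ^ b * 5 ^ c := hn
      _ = _ := by ring
  have h2 : m * g = 2 ^ a * 3 ^ b := by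
    apply Nat.eq_of_mul_eq_mul_right hy
    calc m * g * 5 ^ c = m * (g * 5 ^ c) := by ring
      _ = _ := hm
  have hA : 2 ^ a ≤ 256 := by
    calc 2 ^ a ≤ 2 ^ 8 := Nat.pow_le_pow_right (by norm_num) ha8
      _ = 256 := by norm_num
  obtain ⟨hb1, hb2⟩ := bound (A := 2 ^ a) (by positivity) hx hy hfpos hgpos h1 h2 hnd hmd hn1 hm1
  have hbig : ∀ u v : ℕ, u ≤ 8 → v ≤ 8 →
      2 ^ a * v + 2 ^ a * 2 ^ a * u ≤ 526336 := by
    intro u v hu hv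
    have e1 : 2 ^ a * v ≤ 256 * 8 := Nat.mul_le_mul hA hv
    have e2 : 2 ^ a * 2 ^ a ≤ 256 * 256 := Nat.mul_le_mul hA hA
    have e3 : 2 ^ a * 2 ^ a * u ≤ 256 * 256 * 8 := Nat.mul_le_mul e2 hu
    omega
  have hb11 : b < 12 := by
    by_contra hcon
    have h3 : 3 ^ 12 ≤ 3 ^ b := Nat.pow_le_pow_right (by norm_num) (by omega)
    have h4 := hbig f g hf8 hg8
    norm_num at h3
    omega
  have hc8 : c < 9 := by
    by_contra hcon
    have h3 : 5 ^ 9 ≤ 5 ^ c := Nat.pow_le_pow_right (by norm_num) (by omega)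
    have h4 := hbig g f hg8 hf8
    norm_num at h3
    omega
  have hdiv1 : 2 ^ a * 5 ^ c / f = n := Nat.div_eq_of_eq_mul_left hfpos h1.symm
  have hdiv2 : 2 ^ a * 3 ^ b / g = m := Nat.div_eq_of_eq_mul_left hgpos h2.symm
  refine check a (List.mem_range.2 (by omega)) b (List.mem_range.2 hb11) c (List.mem_range.2 hc8)
    f (by rcases hf with rfl | rfl | rfl | rfl | rfl <;> simp)
    g (by rcases hg with rfl | rfl | rfl | rfl | rfl <;> simp) ha1 hb hc hfd hgd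
    (Dvd.intro_left _ h1) (by rw [hdiv1]; omega) (by rw [hdiv1]; exact hnd)
    (Dvd.intro_left _ h2) (by rw [hdiv2]; omega) (by rw [hdiv2]; exact hmd)

end Cfsg.Agent.Lib.Ord5.Arith
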