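import Mathlib

/-!
# Finite groups whose element orders are at most `5`

Basic closure properties of the class, commuting elements, and a divisibility lemma for free
actions.
-/

set_option autoImplicit false
set_option linter.style.haveILetI false
set_option linter.unusedSectionVars false

namespace Cfsg.Agent.Lib.Ord5.Basic

universe u

/-- All element orders are at most `5` (and positive). -/
def IsO (G : Type*) [Group G] : Prop := ∀ g : G, orderOf g ≤ 5 ∧ 0 < orderOf g

variable {G : Type u} [Group G]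

theorem IsO.of_finite [Finite G] (h : ∀ g : G, orderOf g ≤ 5) : IsO G :=
  fun g => ⟨h g, orderOf_pos g⟩

theorem IsO.cases {G : Type*} [Group G] (hG : IsO G) (g : G) :
    orderOf g = 1 ∨ orderOf g = 2 ∨ orderOf g = 3 ∨ orderOf g = 4 ∨ orderOf g = 5 := by
  have := hG g
  omega

theorem IsO.of_injective {H : Type*} [Group H] (hG : IsO G) (f : H →* G)
    (hf : Function.Injective f) : IsO H := fun g => by
  rw [← orderOf_injective f hf g]
  exact hG _

theorem IsO.of_surjective {H : Type*} [Group H] (hG : IsO G) (f : G →* H)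
    (hf : Function.Surjective f) : IsO H := fun g => by
  obtain ⟨x, rfl⟩ := hf g
  have h1 := orderOf_map_dvd f x
  have h2 := hG x
  have h3 := Nat.le_of_dvd h2.2 h1
  refine ⟨h3.trans h2.1, Nat.pos_of_dvd_of_pos h1 h2.2⟩

theorem IsO.subgroup (hG : IsO G) (H : Subgroup G) : IsO H :=
  hG.of_injective H.subtype H.subtype_injective

theorem IsO.quotient (hG : IsO G) (N : Subgroup G) [N.Normal] : IsO (G ⧸ N) :=
  hG.of_surjective (QuotientGroup.mk' N) (QuotientGroup.mk'_surjective N)

/-- Commuting elements of coprime orders: one of them is trivial. -/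
theorem IsO.eq_one_of_coprime (hG : IsO G) {a b : G} (hc : Commute a b)
    (hco : Nat.Coprime (orderOf a) (orderOf b)) : a = 1 ∨ b = 1 := by
  have h := hc.orderOf_mul_eq_mul_orderOf_of_coprime hco
  have h1 := (hG (a * b)).1
  rw [h] at h1
  by_contra hne
  push Not at hne
  have ha : orderOf a ≠ 1 := fun h => hne.1 (orderOf_eq_one_iff.1 h)
  have hb : orderOf b ≠ 1 := fun h => hne.2 (orderOf_eq_one_iff.1 h)
  rcases hG.cases a with h2 | h2 | h2 | h2 | h2 <;>
    rcases hG.cases b with h3 | h3 | h3 | h3 | h3 <;> rw [h2, h3] at hco h1 <;>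
    first
      | omega
      | (exfalso; revert hco; decide)

/-- Primes dividing the order of a group in the class. -/
theorem IsO.prime_cases (hG : IsO G) [Finite G] {q : ℕ} (hq : q.Prime) (hd : q ∣ Nat.card G) :
    q = 2 ∨ q = 3 ∨ q = 5 := by
  haveI : Fact q.Prime := ⟨hq⟩
  obtain ⟨g, hg⟩ := exists_prime_orderOf_dvd_card' q hd
  have h := hG.cases g
  rw [hg] at h
  rcases h with h | h | h | h | h
  · exact absurd h hq.one_lt.ne'
  · exact Or.inl h
  · exact Or.inr (Or.inl h)
  · subst h; norm_num at hq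
  · exact Or.inr (Or.inr h)

/-- Orders that are not coprime to a power of `p`, among `1,…,5`, are powers of `p`. -/
theorem pow_of_not_coprime {p j n : ℕ} (hp : p = 2 ∨ p = 3 ∨ p = 5)
    (hn : n = 1 ∨ n = 2 ∨ n = 3 ∨ n = 4 ∨ n = 5) (hc : ¬ Nat.Coprime (p ^ j) n) :
    ∃ k, n = p ^ k := by
  rcases hn with rfl | rfl | rfl | rfl | rfl
  · exact ⟨0, by simp⟩
  all_goals rcases hp with rfl | rfl | rfl
  · exact ⟨1, rfl⟩
  · exact absurd (Nat.Coprime.pow_left _ (by norm_num)) hc
  · exact absurd (Nat.Coprime.pow_left _ (by norm_num)) hc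
  · exact absurd (Nat.Coprime.pow_left _ (by norm_num)) hc
  · exact ⟨1, rfl⟩
  · exact absurd (Nat.Coprime.pow_left _ (by norm_num)) hc
  · exact ⟨2, rfl⟩
  · exact absurd (Nat.Coprime.pow_left _ (by norm_num)) hc
  · exact absurd (Nat.Coprime.pow_left _ (by norm_num)) hc
  · exact absurd (Nat.Coprime.pow_left _ (by norm_num)) hc
  · exact absurd (Nat.Coprime.pow_left _ (by norm_num)) hc
  · exact ⟨1, rfl⟩

/-- Every element's order is a prime power for one of `2,3,5`. -/
theorem IsO.exists_prime_pow (hG : IsO G) (g : G) :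
    ∃ p k, (p = 2 ∨ p = 3 ∨ p = 5) ∧ orderOf g = p ^ k := by
  rcases hG.cases g with h | h | h | h | h
  · exact ⟨2, 0, Or.inl rfl, by simpa using h⟩
  · exact ⟨2, 1, Or.inl rfl, by simpa using h⟩
  · exact ⟨3, 1, Or.inr (Or.inl rfl), by simpa using h⟩
  · exact ⟨2, 2, Or.inl rfl, by simpa using h⟩
  · exact ⟨5, 1, Or.inr (Or.inr rfl), by simpa using h⟩

/-- If `x ≠ 1` has `p`-power order and commutes with `y`, then `y` has `p`-power order. -/
theorem IsO.pow_of_commute (hG : IsO G) {p j : ℕ} (hp : p = 2 ∨ p = 3 ∨ p = 5) {x y : G}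
    (hx : orderOf x = p ^ j) (hx1 : x ≠ 1) (hc : Commute x y) : ∃ k, orderOf y = p ^ k := by
  by_cases hy : y = 1
  · exact ⟨0, by simp [hy]⟩
  refine pow_of_not_coprime (j := j) hp (hG.cases y) ?_
  intro hco
  rw [← hx] at hco
  rcases hG.eq_one_of_coprime hc hco with h | h
  · exact hx1 h
  · exact hy h

/-- The centralizer of a nontrivial `p`-element is a `p`-group. -/
theorem IsO.isPGroup_centralizer (hG : IsO G) {p j : ℕ} (hp : p = 2 ∨ p = 3 ∨ p = 5) {x : G}
    (hx : orderOf x = p ^ j) (hx1 : x ≠ 1) :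
    IsPGroup p (Subgroup.centralizer ({x} : Set G)) := by
  intro y
  obtain ⟨k, hk⟩ := hG.pow_of_commute hp hx hx1 (y := y) (Subgroup.mem_centralizer_singleton_iff.1 y.2).symm
  refine ⟨k, ?_⟩
  have h : (y : G) ^ (p ^ k) = 1 := by rw [← hk]; exact pow_orderOf_eq_one _
  exact Subtype.ext (by simpa using h)

/-- Elements of `2`-power order satisfy `x ^ 4 = 1`. -/
theorem IsO.pow_four (hG : IsO G) {x : G} {k : ℕ} (hk : orderOf x = 2 ^ k) : x ^ 4 = 1 := by
  have h := (hG x).1
  have : k ≤ 2 := by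
    by_contra hc
    have h8 : 2 ^ 3 ≤ 2 ^ k := Nat.pow_le_pow_right (by norm_num) (by omega)
    rw [hk] at h
    omega
  rw [← orderOf_dvd_iff_pow_eq_one, hk]
  exact pow_dvd_pow 2 this |>.trans (by norm_num)

/-- Elements of `r`-power order, `r = 3, 5`, have order dividing `r`. -/
theorem IsO.pow_prime (hG : IsO G) {r : ℕ} (hr : r = 3 ∨ r = 5) {x : G} {k : ℕ}
    (hk : orderOf x = r ^ k) : x ^ r = 1 := by
  have h := (hG x).1
  have : k ≤ 1 := by
    by_contra hc
    have h8 : r ^ 2 ≤ r ^ k := Nat.pow_le_pow_right (by rcases hr with rfl | rfl <;> norm_num) (by omega)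
    rw [hk] at h
    rcases hr with rfl | rfl <;> omega
  rw [← orderOf_dvd_iff_pow_eq_one, hk]
  exact (pow_dvd_pow r this).trans (by simp)

/-- An element mapping to an element of order `r = 3, 5` has order `r`. -/
theorem IsO.orderOf_lift (hG : IsO G) {H : Type*} [Group H] (f : G →* H) {r : ℕ} (hr : r = 3 ∨ r = 5)
    {x : G} (hx : orderOf (f x) = r) : orderOf x = r := by
  have h1 : r ∣ orderOf x := hx ▸ orderOf_map_dvd f x
  rcases hG.cases x with h | h | h | h | h <;> rw [h] at h1 ⊢ <;> rcases hr with rfl | rfl <;>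
    first
      | rfl
      | (exfalso; revert h1; decide)

/-- Free actions: the order of the group divides the order of the set. -/
theorem card_dvd_of_free {K X : Type*} [Group K] [Finite K] [Finite X] (act : K → X → X)
    (h1 : ∀ x, act 1 x = x) (h2 : ∀ k l x, act (k * l) x = act k (act l x))
    (hfree : ∀ k x, act k x = x → k = 1) : Nat.card K ∣ Nat.card X := by
  letI : MulAction K X := { smul := act, one_smul := h1, mul_smul := h2 }
  have e := MulAction.selfEquivOrbitsQuotientProd (G := K) (X := X) (fun b => by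
    rw [eq_bot_iff]
    intro k hk
    exact hfree k b hk)
  rw [Nat.card_congr e, Nat.card_prod]
  exact dvd_mul_left _ _

/-- The order of a group in the class is a `{2,3,5}`-number. -/
theorem IsO.card_eq (hG : IsO G) [Finite G] :
    ∃ a b c, Nat.card G = 2 ^ a * 3 ^ b * 5 ^ c := by
  have hpos : Nat.card G ≠ 0 := Nat.card_pos.ne'
  obtain ⟨a, m, hm, hma⟩ := Nat.exists_eq_pow_mul_and_not_dvd hpos 2 (by norm_num)
  have hm0 : m ≠ 0 := by
    rintro rfl
    simp at hm
  obtain ⟨b, m', hm', hmb⟩ := Nat.exists_eq_pow_mul_and_not_dvd hm0 3 (by norm_num)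
  have hm'0 : m' ≠ 0 := by
    rintro rfl
    simp at hm'
  obtain ⟨c, m'', hm'', hmc⟩ := Nat.exists_eq_pow_mul_and_not_dvd hm'0 5 (by norm_num)
  refine ⟨a, b, c, ?_⟩
  have h1 : m'' = 1 := by
    by_contra hne
    obtain ⟨q, hq, hqd⟩ := Nat.exists_prime_and_dvd hne
    have hd : q ∣ Nat.card G := by
      rw [hma, hmb, hmc]
      exact Dvd.dvd.mul_left (Dvd.dvd.mul_left (Dvd.dvd.mul_left hqd _) _) _
    rcases hG.prime_cases hq hd with rfl | rfl | rfl
    · apply hm
      rw [hmb, hmc]
      exact Dvd.dvd.mul_left (Dvd.dvd.mul_left hqd _) _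
    · apply hm'
      rw [hmc]
      exact Dvd.dvd.mul_left hqd _
    · exact hm'' hqd
  rw [hma, hmb, hmc, h1, mul_one, mul_assoc]

end Cfsg.Agent.Lib.Ord5.Basic
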