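import Cfsg.Agent.Lib.Ord5.Basic
import Cfsg.Agent.Lib.Invol8.Simple
import Cfsg.Agent.Lib.FPF.Concrete

/-!
# Fixed-point-free subgroups in groups with element orders at most `5`
-/

set_option autoImplicit false
set_option linter.style.haveILetI false
set_option linter.unusedSectionVars false

namespace Cfsg.Agent.Lib.Ord5.Fpf

open Cfsg.Agent.Lib.Ord5.Basic

universe u

variable {M : Type u} [Group M] [Finite M]

theorem orderOf_mem {p : ℕ} (hp : p.Prime) {D : Subgroup M} (hD : IsPGroup p D) {x : M}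
    (hx : x ∈ D) : ∃ k, orderOf x = p ^ k := by
  haveI : Fact p.Prime := ⟨hp⟩
  obtain ⟨k, hk⟩ := IsPGroup.iff_orderOf.1 hD ⟨x, hx⟩
  exact ⟨k, by rwa [Subgroup.orderOf_mk] at hk⟩

/-- Elements of coprime prime-power orders that commute. -/
theorem eq_one_of_commute_pow (hM : IsO M) {p q i j : ℕ} (hp : p.Prime) (hq : q.Prime) (hpq : p ≠ q)
    {x y : M} (hx : orderOf x = p ^ i) (hy : orderOf y = q ^ j) (hc : Commute x y) :
    x = 1 ∨ y = 1 :=
  hM.eq_one_of_coprime hc (by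
    rw [hx, hy]
    exact Nat.Coprime.pow _ _ ((Nat.coprime_primes hp hq).2 hpq))

theorem orderOf_invol {c : M} (hc : c * c = 1) (hc1 : c ≠ 1) : orderOf c = 2 := by
  haveI : Fact (Nat.Prime 2) := ⟨Nat.prime_two⟩
  exact orderOf_eq_prime (by rw [pow_two]; exact hc) hc1

/-- An involution inverts a normal subgroup of odd prime power order. -/
theorem inverts (hM : IsO M) (D : Subgroup M) [hDn : D.Normal] {p : ℕ} (hpp : p.Prime) (hne : p ≠ 2)
    (hD : IsPGroup p D) {c : M} (hc : c * c = 1) (hc1 : c ≠ 1) {x : M} (hx : x ∈ D) :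
    c * x * c⁻¹ = x⁻¹ := by
  refine Cfsg.Agent.Lib.Invol8.Simple.inverts_of_fpf D c hc ?_ hx
  intro n hn hnc
  obtain ⟨k, hk⟩ := orderOf_mem hpp hD hn
  have hcord : orderOf c = 2 ^ 1 := by rw [pow_one]; exact orderOf_invol hc hc1
  rcases eq_one_of_commute_pow hM hpp Nat.prime_two hne hk hcord hnc with h | h
  · exact h
  · exact absurd h hc1

/-- Two involutions whose product has `2`-power order and which act on a normal subgroup of odd
prime power order are equal. -/
theorem unique_invol (hM : IsO M) (D : Subgroup M) [hDn : D.Normal] {p : ℕ} (hp : p = 3 ∨ p = 5)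
    (hD : IsPGroup p D) (hD1 : D ≠ ⊥) {a b : M} (ha : a * a = 1) (hb : b * b = 1)
    (ha1 : a ≠ 1) (hb1 : b ≠ 1) (hab : ∃ k, orderOf (a * b) = 2 ^ k) : a = b := by
  have hpp : p.Prime := by rcases hp with rfl | rfl <;> norm_num
  have hne : p ≠ 2 := by rcases hp with rfl | rfl <;> norm_num
  obtain ⟨x, hx1⟩ := Subgroup.ne_bot_iff_exists_ne_one.1 hD1
  have hx1' : (x : M) ≠ 1 := fun h => hx1 (Subtype.ext h)
  have h1 := inverts hM D hpp hne hD ha ha1 x.2
  have h2 := inverts hM D hpp hne hD hb hb1 x.2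
  have h3 : Commute (a * b) (x : M) := by
    have h4 : (a * b) * x * (a * b)⁻¹ = x := by
      calc (a * b) * x * (a * b)⁻¹ = a * (b * x * b⁻¹) * a⁻¹ := by group
        _ = (a * x * a⁻¹)⁻¹ := by rw [h2]; group
        _ = x := by rw [h1]; simp
    calc (a * b) * (x : M) = (a * b) * x * (a * b)⁻¹ * (a * b) := by group
      _ = x * (a * b) := by rw [h4]
  obtain ⟨k, hk⟩ := hab
  obtain ⟨j, hj⟩ := orderOf_mem hpp hD x.2
  rcases eq_one_of_commute_pow hM Nat.prime_two hpp hne.symm hk hj h3 with h | h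
  · have h5 := eq_inv_of_mul_eq_one_left h
    rw [h5, inv_eq_of_mul_eq_one_left hb]
  · exact absurd h hx1'

/-- The center of a normal subgroup, as a normal subgroup. -/
def zee (D : Subgroup M) : Subgroup M := Subgroup.centralizer (D : Set M) ⊓ D

instance zee_normal (D : Subgroup M) [hD : D.Normal] : (zee D).Normal := by
  unfold zee
  infer_instance

theorem zee_ne_bot {s : ℕ} (hs : s.Prime) (D : Subgroup M) (hD : IsPGroup s D) (hD1 : D ≠ ⊥) :
    zee D ≠ ⊥ := by
  haveI : Fact s.Prime := ⟨hs⟩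
  haveI : Nontrivial D := (Subgroup.nontrivial_iff_ne_bot D).2 hD1
  haveI := hD.center_nontrivial
  obtain ⟨z, hz⟩ := exists_ne (1 : Subgroup.center D)
  have hz1 : ((z : D) : M) ≠ 1 := fun h => hz (Subtype.ext (Subtype.ext h))
  intro hb
  have : ((z : D) : M) ∈ zee D := by
    refine ⟨?_, (z : D).2⟩
    change ((z : D) : M) ∈ Subgroup.centralizer (D : Set M)
    rw [Subgroup.mem_centralizer_iff]
    intro d hd
    have := Subgroup.mem_center_iff.1 z.2 ⟨d, hd⟩
    exact congrArg Subtype.val this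
  rw [hb, Subgroup.mem_bot] at this
  exact hz1 this

/-- Abelian `q`-subgroups acting on a normal `s`-subgroup are cyclic. -/
theorem isCyclic_of_comm (hM : IsO M) (D : Subgroup M) [hDn : D.Normal] {s q : ℕ} (hs : s.Prime)
    (hq : q.Prime) (hsq : s ≠ q) (hD : IsPGroup s D) (hD1 : D ≠ ⊥) (A : Subgroup M)
    (hA : IsPGroup q A) (hcomm : ∀ a ∈ A, ∀ b ∈ A, a * b = b * a) : IsCyclic A := by
  refine Cfsg.Agent.Lib.FPF.Concrete.isCyclic_of_comm A (zee D) ?_ (zee_ne_bot hs D hD hD1) ?_ ?_ hcomm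
  · rintro x ⟨hx, -⟩ y ⟨-, hy⟩
    exact (Subgroup.mem_centralizer_iff.1 hx y hy).symm
  · rw [Subgroup.normalizer_eq_top_iff.2 (zee_normal D)]
    exact le_top
  · intro a ha ha1 v hv hav
    obtain ⟨i, hi⟩ := orderOf_mem hq hA ha
    obtain ⟨j, hj⟩ := orderOf_mem hs hD hv.2
    rcases eq_one_of_commute_pow hM hq hs hsq.symm hi hj hav with h | h
    · exact absurd h ha1
    · exact h

/-- `r`-subgroups acting on a nontrivial normal `s`-subgroup have order at most `r`. -/
theorem card_le_of_rgroup (hM : IsO M) (D : Subgroup M) [hDn : D.Normal] {s r : ℕ} (hs : s.Prime)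
    (hr : r = 3 ∨ r = 5) (hsr : s ≠ r) (hD : IsPGroup s D) (hD1 : D ≠ ⊥) (R : Subgroup M)
    (hR : IsPGroup r R) : Nat.card R ≤ r := by
  have hrp : r.Prime := by rcases hr with rfl | rfl <;> norm_num
  haveI : Fact r.Prime := ⟨hrp⟩
  obtain ⟨k, hk⟩ := IsPGroup.iff_card.1 hR
  by_contra hlt
  have hk2 : 2 ≤ k := by
    by_contra h
    have : k ≤ 1 := by omega
    have h2 : r ^ k ≤ r ^ 1 := Nat.pow_le_pow_right hrp.pos this
    rw [← hk, pow_one] at h2
    exact hlt h2
  have hdvd : r ^ 2 ∣ Nat.card R := by rw [hk]; exact pow_dvd_pow r hk2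
  obtain ⟨Q, hQ⟩ := Sylow.exists_subgroup_card_pow_prime r hdvd
  have hQ' : IsPGroup r Q := IsPGroup.of_card hQ
  let A : Subgroup M := Q.map R.subtype
  have hAc : Nat.card A = r ^ 2 := by
    rw [← hQ]
    exact Nat.card_congr (Subgroup.equivMapOfInjective Q R.subtype R.subtype_injective).toEquiv.symm
  have hAp : IsPGroup r A := IsPGroup.of_card hAc
  have hAcomm : ∀ a ∈ A, ∀ b ∈ A, a * b = b * a := by
    haveI := IsPGroup.isMulCommutative_of_card_eq_prime_sq hAc
    intro a ha b hb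
    exact congrArg Subtype.val (this.is_comm.comm ⟨a, ha⟩ ⟨b, hb⟩)
  have hcyc := isCyclic_of_comm hM D hs hrp hsr hD hD1 A hAp hAcomm
  obtain ⟨g, hg⟩ := hcyc.exists_generator
  have hg1 := orderOf_eq_card_of_forall_mem_zpowers hg
  rw [hAc] at hg1
  have h5 := (hM (g : M)).1
  rw [Subgroup.orderOf_coe, hg1] at h5
  rcases hr with rfl | rfl <;> omega

/-- Lifting a `q`-subgroup along a surjection whose kernel is an `s`-group. -/
theorem exists_lift {Γ : Type*} [Group Γ] (π : M →* Γ) (hπ : Function.Surjective π) {s q : ℕ}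
    (hs : s.Prime) (hq : q.Prime) (hsq : s ≠ q) (hker : IsPGroup s π.ker) (Rb : Subgroup Γ)
    (hR : IsPGroup q Rb) :
    ∃ R : Subgroup M, IsPGroup q R ∧ R.map π = Rb ∧ ∀ x ∈ R, π x = 1 → x = 1 := by
  haveI : Fact q.Prime := ⟨hq⟩
  haveI : Fact s.Prime := ⟨hs⟩
  let X := Rb.comap π
  let π' : X →* Rb := π.subgroupComap Rb
  have hs' : Function.Surjective π' := π.subgroupComap_surjective_of_surjective Rb hπ
  obtain ⟨Q⟩ : Nonempty (Sylow q X) := inferInstance
  let Q' : Sylow q Rb := Q.mapSurjective hs'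
  have htop : (Q' : Subgroup Rb) = ⊤ := by
    have h1 : IsPGroup q (⊤ : Subgroup Rb) := by
      intro x
      obtain ⟨k, hk⟩ := hR (x.1)
      exact ⟨k, Subtype.ext hk⟩
    exact (Q'.is_maximal' h1 le_top).symm
  refine ⟨Q.map X.subtype, Q.2.map _, ?_, ?_⟩
  · apply le_antisymm
    · rintro _ ⟨_, ⟨x, -, rfl⟩, rfl⟩
      exact x.2
    · intro y hy
      have h2 : (⟨y, hy⟩ : Rb) ∈ (Q' : Subgroup Rb) := by rw [htop]; trivial
      rw [Sylow.coe_mapSurjective] at h2
      obtain ⟨x, hx, hxy⟩ := h2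
      exact ⟨x, ⟨x, hx, rfl⟩, congrArg Subtype.val hxy⟩
  · rintro _ ⟨x, hx, rfl⟩ h1
    have hQp : IsPGroup q (Q.map X.subtype) := Q.2.map _
    obtain ⟨i, hi⟩ := orderOf_mem hq hQp (x := (x : M)) ⟨x, hx, rfl⟩
    obtain ⟨j, hj⟩ := orderOf_mem hs hker (x := (x : M)) h1
    have hco : Nat.Coprime (orderOf (x : M)) (orderOf (x : M)) := by
      nth_rw 1 [hi]
      rw [hj]
      exact Nat.Coprime.pow _ _ ((Nat.coprime_primes hq hs).2 hsq.symm)
    have := (Nat.coprime_self _).1 hco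
    exact orderOf_eq_one_iff.1 this

end Cfsg.Agent.Lib.Ord5.Fpf
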