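import Cfsg.Agent.Lib.Ord5.E1

/-!
# The freeness lemma: `|C_W(u)|² = |W|`
-/

set_option autoImplicit false
set_option linter.style.haveILetI false
set_option linter.unusedSectionVars false

namespace Cfsg.Agent.Lib.Ord5.Free

open Subgroup Cfsg.Agent.Lib.Ord5.Basic Cfsg.Agent.Lib.Ord5.Module Cfsg.Agent.Lib.Ord5.E1

universe u

variable {M : Type u} [Group M] [Finite M]

/-- Fixed points are norms. -/
theorem fixed_eq_norm (hM : IsO M) (W : Subgroup M) [hWn : W.Normal] (hW : ∀ w ∈ W, w * w = 1)
    {u y : M} {r : ℕ} (hr : r = 3 ∨ r = 5) (hy : orderOf y = r) (huy : u * y * u⁻¹ * y ∈ W)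
    {w : M} (hwW : w ∈ W) (hw : u * w * u⁻¹ = w) : ∃ v ∈ W, v * (u * v * u⁻¹) = w := by
  have hWt : ∀ w : W, w * w = 1 := fun w => Subtype.ext (by simpa using hW w w.2)
  have hdat := data_of W hM hW hr hy huy
  obtain ⟨v, hv⟩ := r1' hWt hdat (⟨w, hwW⟩ : W) (Subtype.ext (by rw [cj_coe]; exact hw))
  refine ⟨v, v.2, ?_⟩
  have := congrArg Subtype.val hv
  rwa [Subgroup.coe_mul, cj_coe] at this

theorem card_fix (hM : IsO M) (W : Subgroup M) [hWn : W.Normal] (hW : ∀ w ∈ W, w * w = 1)
    {u y : M} {r : ℕ} (hr : r = 3 ∨ r = 5) (hy : orderOf y = r) (hu : u * u ∈ W)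
    (huy : u * y * u⁻¹ * y ∈ W) :
    Nat.card W = Nat.card (W ⊓ centralizer ({u} : Set M) : Subgroup M) ^ 2 := by
  have hWt : ∀ w : W, w * w = 1 := fun w => Subtype.ext (by simpa using hW w w.2)
  have hcomm : ∀ x y : W, x * y = y * x := comm_of_exp_two hWt
  have hconj : ∀ v : W, u * (v : M) * u⁻¹ ∈ W := fun v => hWn.conj_mem _ v.2 u
  have ha2 : ∀ v : W, cj W u (cj W u v) = v := by
    intro v
    apply Subtype.ext
    simp only [cj_coe]
    have h1 : u * (u * (v : M) * u⁻¹) * u⁻¹ = (u * u) * v * (u * u)⁻¹ := by group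
    rw [h1]
    have h2 := congrArg Subtype.val (hcomm ⟨u * u, hu⟩ v)
    simp only [Subgroup.coe_mul] at h2
    rw [h2]; group
  let τ : W →* W :=
    { toFun := fun v => v * cj W u v
      map_one' := by simp
      map_mul' := fun x y => by
        rw [map_mul]
        calc x * y * (cj W u x * cj W u y) = x * (y * cj W u x) * cj W u y := by group
          _ = x * (cj W u x * y) * cj W u y := by rw [hcomm y]
          _ = _ := by group }
  have hτ : ∀ v : W, τ v = v * cj W u v := fun _ => rfl
  let A : Subgroup M := W ⊓ centralizer ({u} : Set M)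
  let F : Subgroup W := A.subgroupOf W
  have hmemF : ∀ v : W, v ∈ F ↔ cj W u v = v := by
    intro v
    constructor
    · intro hv
      have h1 : (v : M) ∈ centralizer ({u} : Set M) := hv.2
      have h2 : u * (v : M) = v * u := (Subgroup.mem_centralizer_singleton_iff.1 h1).symm
      apply Subtype.ext
      rw [cj_coe, h2]
      group
    · intro hv
      have h1 := congrArg Subtype.val hv
      rw [cj_coe] at h1
      refine ⟨v.2, ?_⟩
      change (v : M) ∈ centralizer ({u} : Set M)
      rw [Subgroup.mem_centralizer_singleton_iff]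
      calc (v : M) * u = (u * v * u⁻¹) * u := by rw [h1]
        _ = u * v := by group
  have hker : τ.ker = F := by
    ext v
    rw [MonoidHom.mem_ker, hτ, hmemF]
    constructor
    · intro h
      have h1 : (cj W u v)⁻¹ = v := (inv_eq_of_mul_eq_one_left h)
      rw [inv_eq_of_mul_eq_one_left (hWt _)] at h1
      exact h1
    · intro h
      rw [h, hWt]
  have hrange : τ.range = F := by
    ext v
    rw [hmemF]
    constructor
    · rintro ⟨x, rfl⟩
      rw [hτ, map_mul, ha2, hcomm]
    · intro h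
      have h1 : u * (v : M) * u⁻¹ = v := by
        have := congrArg Subtype.val h
        rwa [cj_coe] at this
      obtain ⟨x, hx, hxv⟩ := fixed_eq_norm hM W hW hr hy huy v.2 h1
      refine ⟨⟨x, hx⟩, Subtype.ext ?_⟩
      rw [hτ, Subgroup.coe_mul, cj_coe]
      exact hxv
  have hcardF : Nat.card F = Nat.card A :=
    Nat.card_congr (Subgroup.subgroupOfEquivOfLe inf_le_left).toEquiv
  have h1 : Nat.card τ.ker * τ.ker.index = Nat.card W := Subgroup.card_mul_index _
  rw [Subgroup.index_ker, hker, hrange, hcardF] at h1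
  rw [← h1, pow_two]

end Cfsg.Agent.Lib.Ord5.Free
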