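import Mathlib

/-!
# An element of order eight from a swap of two elementary abelian subgroups
-/

set_option autoImplicit false
set_option linter.style.haveILetI false
set_option linter.unusedSectionVars false

namespace Cfsg.Agent.Lib.Ord5.LemV

open Subgroup

universe u

variable {G : Type u} [Group G] [Finite G]

/-- A subgroup contained in the union of two subgroups lies in one of them. -/
theorem le_or_le_of_subset_union {E A D : Subgroup G} (h : ∀ x ∈ E, x ∈ A ∨ x ∈ D) : E ≤ A ∨ E ≤ D := by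
  by_contra hcon
  push Not at hcon
  obtain ⟨h1, h2⟩ := hcon
  obtain ⟨x, hx, hxA⟩ := SetLike.not_le_iff_exists.1 h1
  obtain ⟨y, hy, hyD⟩ := SetLike.not_le_iff_exists.1 h2
  have hxD : x ∈ D := (h x hx).resolve_left hxA
  have hyA : y ∈ A := (h y hy).resolve_right hyD
  rcases h (x * y) (E.mul_mem hx hy) with h3 | h3
  · apply hxA
    have : x = x * y * y⁻¹ := by group
    rw [this]
    exact A.mul_mem h3 (A.inv_mem hyA)
  · apply hyD
    have : y = x⁻¹ * (x * y) := by group
    rw [this]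
    exact D.mul_mem (D.inv_mem hxD) h3

/-- The conjugate of a subgroup. -/
def conjS (v : G) (D : Subgroup G) : Subgroup G := D.map (MulAut.conj v).toMonoidHom

theorem mem_conjS {v : G} {D : Subgroup G} {x : G} : x ∈ conjS v D ↔ v⁻¹ * x * v ∈ D := by
  constructor
  · rintro ⟨d, hd, rfl⟩
    have : v⁻¹ * ((MulAut.conj v).toMonoidHom d) * v = d := by
      simp [MulAut.conj_apply]; group
    rwa [this]
  · intro h
    refine ⟨_, h, ?_⟩
    simp [MulAut.conj_apply]; group

theorem conj_mem_conjS {v : G} {D : Subgroup G} {x : G} (hx : x ∈ D) : v * x * v⁻¹ ∈ conjS v D := by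
  rw [mem_conjS]
  have : v⁻¹ * (v * x * v⁻¹) * v = x := by group
  rwa [this]

theorem card_conjS (v : G) (D : Subgroup G) : Nat.card (conjS v D) = Nat.card D :=
  (Nat.card_congr (Subgroup.equivMapOfInjective D (MulAut.conj v).toMonoidHom
    (MulAut.conj v).injective).toEquiv).symm

/-- **Lemma V.** -/
theorem lemV {A D T₁ : Subgroup G} (hAel : ∀ x ∈ A, x * x = 1) (hDel : ∀ x ∈ D, x * x = 1)
    (hne : A ≠ D) {v : G} (hvD : A = conjS v D) (hT : ∀ t ∈ T₁, ∃ a ∈ A, ∃ d ∈ D, t = a * d)
    (hAT : A ≤ T₁) (hvT : ∀ t ∈ T₁, v * t * v⁻¹ ∈ T₁) (hv2 : v * v ∈ T₁) (hv4 : v ^ 4 = 1)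
    (hnc : ∀ a ∈ A, a ∉ D → ∀ d ∈ D, a * d = d * a → d ∈ A)
    (hord : ∀ x ∈ D, (v * x) ^ 4 = 1) : False := by
  have hAc : Nat.card A = Nat.card D := by rw [hvD]; exact card_conjS v D
  have hi : ∀ {x : G}, x * x = 1 → x⁻¹ = x := fun h => inv_eq_of_mul_eq_one_left h
  have hcomm : ∀ {B : Subgroup G}, (∀ x ∈ B, x * x = 1) → ∀ x ∈ B, ∀ y ∈ B, x * y = y * x := by
    intro B hB x hx y hy
    have h1 := hi (hB _ (B.mul_mem hx hy))
    rw [mul_inv_rev, hi (hB _ hx), hi (hB _ hy)] at h1
    exact h1.symm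
  -- the involutions of `T₁`
  have hinv : ∀ t ∈ T₁, t * t = 1 → t ∈ A ∨ t ∈ D := by
    intro t ht ht2
    obtain ⟨a, ha, d, hd, rfl⟩ := hT t ht
    by_cases haD : a ∈ D
    · exact Or.inr (D.mul_mem haD hd)
    · left
      have hc : a * d = d * a := by
        have h1 := hi ht2
        rw [mul_inv_rev, hi (hAel _ ha), hi (hDel _ hd)] at h1
        exact h1.symm
      exact A.mul_mem ha (hnc a ha haD d hd hc)
  have hE : conjS v A ≤ D := by
    have hE1 : ∀ x ∈ conjS v A, x ∈ A ∨ x ∈ D := by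
      intro x hx
      rw [mem_conjS] at hx
      have e : x = v * (v⁻¹ * x * v) * v⁻¹ := by group
      have hxT : x ∈ T₁ := by
        rw [e]
        exact hvT _ (hAT hx)
      refine hinv x hxT ?_
      calc x * x = v * ((v⁻¹ * x * v) * (v⁻¹ * x * v)) * v⁻¹ := by group
        _ = 1 := by rw [hAel _ hx]; group
    rcases le_or_le_of_subset_union hE1 with h1 | h1
    · exfalso
      apply hne
      have hEA : conjS v A = A := Subgroup.eq_of_le_of_card_ge h1 (by rw [card_conjS])
      -- then `A = D`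
      symm
      apply Subgroup.eq_of_le_of_card_ge _ (le_of_eq hAc)
      intro d hd
      have h2 : v * d * v⁻¹ ∈ A := by rw [hvD]; exact conj_mem_conjS hd
      rw [← hEA, mem_conjS] at h2
      have e : v⁻¹ * (v * d * v⁻¹) * v = d := by group
      rwa [e] at h2
    · exact h1
  have hvA : ∀ a ∈ A, v * a * v⁻¹ ∈ D := fun a ha => hE (conj_mem_conjS ha)
  have hvDm : ∀ d ∈ D, v * d * v⁻¹ ∈ A := fun d hd => by rw [hvD]; exact conj_mem_conjS hd
  -- `v²` lies in both
  have hv22 : (v * v) * (v * v) = 1 := by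
    rw [← hv4]; simp only [pow_succ, pow_zero, one_mul, mul_assoc]
  have hvconj : v * (v * v) * v⁻¹ = v * v := by group
  have hvvA : v * v ∈ A ∧ v * v ∈ D := by
    rcases hinv _ hv2 hv22 with h1 | h1
    · have h2 := hvA _ h1
      rw [hvconj] at h2
      exact ⟨h1, h2⟩
    · have h2 := hvDm _ h1
      rw [hvconj] at h2
      exact ⟨h2, h1⟩
  -- an element of `D` outside `A`
  obtain ⟨x, hx, hxA⟩ : ∃ x ∈ D, x ∉ A := by
    by_contra hcon
    push Not at hcon
    exact hne (Subgroup.eq_of_le_of_card_ge hcon (le_of_eq hAc)).symm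
  -- its conjugate
  have hx''A : v⁻¹ * x * v ∈ A := by
    by_contra hc
    -- `x` is in `conjS v A` as `conjS v A = D`
    have hEq : conjS v A = D := Subgroup.eq_of_le_of_card_ge hE (by rw [card_conjS, hAc])
    rw [← hEq, mem_conjS] at hx
    exact hc hx
  have hx''D : v⁻¹ * x * v ∉ D := by
    intro hc
    apply hxA
    rw [hvD, mem_conjS]
    exact hc
  set x'' := v⁻¹ * x * v with hx''
  have hnotcomm : x'' * x ≠ x * x'' := by
    intro hc
    exact hxA (hnc x'' hx''A hx''D x hx hc)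
  have h4 := hord x hx
  have hzA := hcomm hAel (v * v) hvvA.1 x'' hx''A
  have hzD := hcomm hDel (v * v) hvvA.2 x hx
  have h5 : (v * x) ^ 4 = (x'' * x) * (x'' * x) := by
    have e1 : (v * x) * (v * x) = (v * v) * (x'' * x) := by
      simp only [hx'']; group
    calc (v * x) ^ 4 = ((v * x) * (v * x)) * ((v * x) * (v * x)) := by
          simp only [pow_succ, pow_zero, one_mul, mul_assoc]
      _ = (v * v) * (x'' * x) * ((v * v) * (x'' * x)) := by rw [e1]
      _ = (v * v) * x'' * (x * (v * v)) * (x'' * x) := by group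
      _ = (v * v) * x'' * ((v * v) * x) * (x'' * x) := by rw [hzD]
      _ = (v * v) * (x'' * (v * v)) * x * (x'' * x) := by group
      _ = (v * v) * ((v * v) * x'') * x * (x'' * x) := by rw [hzA]
      _ = ((v * v) * (v * v)) * (x'' * x) * (x'' * x) := by group
      _ = (x'' * x) * (x'' * x) := by rw [hv22, one_mul, mul_assoc]
  rw [h5] at h4
  apply hnotcomm
  have h6 := hi h4
  rw [mul_inv_rev, hi (hDel _ hx), hi (hAel _ hx''A)] at h6
  exact h6.symm

end Cfsg.Agent.Lib.Ord5.LemV
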